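import Cfsg.Agent.H904.PV.U3
import Cfsg.Agent.H904.Sol.U3
import Cfsg.Agent.Prune
set_option linter.all false
prune_inst 0x7f00000000000000000000000000000000000000000000000000000000000000000000000000000000000000000000000000000000000000000000000000000000000000000000000000000000000000003fffffffffffffffffffffffffffbeffbdffffffff
open scoped Cfsg.Agent.FastGrp

/-!
# The Borel subgroup of `PSU₃(q)` (helper983)

* `exists_tor` : a Sylow `p`-subgroup (of exponent `p`), normalised by a `p'`-element `t` with `t ^ (q - 1) ≠ 1`.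
-/

set_option autoImplicit false

namespace Cfsg.Agent.H983.Cov.U3

open Matrix Subgroup
open Cfsg.Agent
open Cfsg.Agent.UThreeGen.MatGroup
open Cfsg.Agent.HKS.EndU (tor tmat tor_val tor_mem act tor_emb ci ci_val wel_tor tor_mem_center sne)
open Cfsg.Agent.H212.U3.Model
open Cfsg.Agent.H904.PVU

universe u

variable {F : Type u} [Field F] [Fintype F]

/-- **The torus.** -/
theorem exists_tor {p q : ℕ} [hp : Fact p.Prime] [CharP F p] (h2 : p ≠ 2) (hF : Fintype.card F = q ^ 2) (hq : 2 < q) :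
    ∃ (P : Subgroup (Cfsg.PSU 3 F q)) (t : Cfsg.PSU 3 F q), IsPGroup p P ∧ Nat.card P = q ^ 3 ∧
      (∀ x ∈ P, x ^ p = 1) ∧ ¬ p ∣ P.index ∧ (∀ x ∈ P, t * x * t⁻¹ ∈ P) ∧ (orderOf t).Coprime p ∧ t ^ (q - 1) ≠ 1 := by
  obtain ⟨σ, hσ, π, S⟩ := exists_setup hF hq
  have h20 : (2 : F) ≠ 0 := by
    intro h
    have h3 : ((2 : ℕ) : F) = 0 := by exact_mod_cast h
    have h4 := (CharP.cast_eq_zero_iff F p 2).1 h3
    exact h2 ((Nat.prime_dvd_prime_iff_eq hp.out Nat.prime_two).1 h4)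
  obtain ⟨l, hl⟩ := IsCyclic.exists_generator (α := Fˣ)
  have hol : orderOf l = q ^ 2 - 1 := by rw [orderOf_eq_card_of_forall_mem_zpowers hl, card_units hF]
  have hex : ∀ x ∈ (emb σ).range.map π, x ^ p = 1 := by
    rintro _ ⟨_, ⟨x, rfl⟩, rfl⟩
    rw [← map_pow, ← map_pow, H904.SolU3.pow_p_odd h20, map_one, map_one]
  have hPG : IsPGroup p ↥((emb σ).range.map π) := fun x => ⟨1, Subtype.ext (by rw [pow_one]; exact hex x x.2)⟩
  refine ⟨(emb σ).range.map π, π (tor σ l), hPG, S.card_U, hex, ?_, ?_, ?_, ?_⟩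
  · obtain ⟨r, hr, Q, hQ⟩ := S.exists_sylow
    have hrp : r = p := by
      obtain ⟨n, hn⟩ := IsPGroup.iff_card.1 hPG
      have hQ' : IsPGroup r ↥((emb σ).range.map π) := hQ ▸ Q.isPGroup'
      obtain ⟨m, hm⟩ := IsPGroup.iff_card.1 hQ'
      have hn0 : m ≠ 0 := by
        rintro rfl
        rw [S.card_U, pow_zero] at hm
        have : 1 < q ^ 3 := Nat.one_lt_pow (by norm_num) (by omega)
        omega
      have h3 : r ∣ p ^ n := by
        rw [← hn, hm]
        exact dvd_pow_self r hn0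
      exact (Nat.prime_dvd_prime_iff_eq hr.out hp.out).1 (hr.out.dvd_of_dvd_pow h3)
    subst hrp
    rw [← hQ]
    exact Q.not_dvd_index
  · rintro _ ⟨_, ⟨x, rfl⟩, rfl⟩
    refine ⟨emb σ (act l x), ⟨_, rfl⟩, ?_⟩
    rw [← map_inv, ← map_mul, ← map_mul, tor_emb, mul_inv_cancel_right]
  · have h1 : orderOf (π (tor σ l)) ∣ orderOf l :=
      orderOf_dvd_of_pow_eq_one (by rw [← map_pow, ← map_pow, pow_orderOf_eq_one, map_one, map_one])
    rw [hol] at h1
    refine Nat.Coprime.coprime_dvd_left h1 ?_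
    rw [Nat.coprime_comm, Nat.Prime.coprime_iff_not_dvd hp.out]
    intro h
    obtain ⟨n, -, hn⟩ := FiniteField.card F p
    rw [hF] at hn
    have h2 : p ∣ q ^ 2 := by rw [hn]; exact dvd_pow_self p n.ne_zero
    have h3 : 1 ≤ q ^ 2 := Nat.one_le_pow _ _ (by omega)
    have h4 := Nat.dvd_sub h2 h
    rw [Nat.sub_sub_self h3] at h4
    exact hp.out.one_lt.ne' (Nat.dvd_one.1 h4)
  · intro h
    rw [← map_pow, ← map_pow] at h
    obtain ⟨x, hx⟩ := exists_a (σ := σ) S.card S.hs 1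
    have h3 : act (l ^ (q - 1)) x = x := S.act_eq (by rw [h, one_mul, mul_one])
    have h4 : (((l ^ (q - 1) : Fˣ) : F)) ^ 2 / σ ((l ^ (q - 1) : Fˣ) : F) * x.a = x.a := congrArg HG.a h3
    rw [hx, mul_one, div_eq_one_iff_eq (sne _), S.hs] at h4
    have h5 : (l ^ (q - 1)) ^ 2 = (l ^ (q - 1)) ^ q := Units.ext (by exact_mod_cast h4)
    have h6 : l ^ (3 * (q - 1)) = 1 := by
      have h7 : (l ^ (q - 1)) ^ (q + 1) = 1 := by
        rw [← pow_mul]
        have h8 : (q - 1) * (q + 1) = q ^ 2 - 1 := by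
          obtain ⟨r, rfl⟩ : ∃ r, q = r + 1 := ⟨q - 1, by omega⟩
          have : (r + 1) ^ 2 = (r + 1 - 1) * (r + 1 + 1) + 1 := by
            rw [Nat.add_sub_cancel]; ring
          omega
        rw [h8, ← hol, pow_orderOf_eq_one]
      have h9 : l ^ (3 * (q - 1)) = (l ^ (q - 1)) ^ 2 * l ^ (q - 1) := by
        rw [← pow_mul, ← pow_add]
        congr 1
        ring
      rw [h9, h5, ← pow_succ, h7]
    have h10 := orderOf_dvd_of_pow_eq_one h6
    rw [hol] at h10
    have h11 := Nat.le_of_dvd (by omega) h10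
    obtain ⟨r, rfl⟩ : ∃ r, q = r + 3 := ⟨q - 3, by omega⟩
    have h12 : (r + 3) ^ 2 = r * r + 6 * r + 9 := by ring
    have h13 : r + 3 - 1 = r + 2 := by omega
    rw [h12, h13] at h11
    have h14 : 0 ≤ r * r := Nat.zero_le _
    omega

end Cfsg.Agent.H983.Cov.U3
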